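import Groth.Agent.CycB.RelDim4
import Groth.Agent.Ega43.EquidimSch
import Groth.Prelude.Def_EGA43

/-!
# Equidimensionality at a point and flat base change
-/

set_option autoImplicit false

universe u

namespace Groth.Agent.Old.H33.EquidimBC

open AlgebraicGeometry CategoryTheory TopologicalSpace
open CategoryTheory.Limits
open Groth.Agent.CycB.RelDim

variable {X Y S : Scheme.{u}}

/-- A point generic in its fibre over `Y` maps to a point of `X` generic in its fibre over `S`. -/
theorem fibGeneric_fst {f : X ⟶ S} {g : Y ⟶ S} {t : ↥(pullback f g)}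
    (ht : FibGeneric (pullback.snd f g) t) : FibGeneric f (pullback.fst f g t) := by
  let e := pullbackSymmetry f g
  have h1 : ∀ s : ↥(pullback g f), pullback.snd f g (e.inv s) = pullback.fst g f s := by
    intro s
    rw [← Scheme.Hom.comp_apply, pullbackSymmetry_inv_comp_snd]
  have h2 : ∀ s : ↥(pullback f g), pullback.fst g f (e.hom s) = pullback.snd f g s := by
    intro s
    rw [← Scheme.Hom.comp_apply, pullbackSymmetry_hom_comp_fst]
  have h3 : ∀ s : ↥(pullback f g), pullback.snd g f (e.hom s) = pullback.fst f g s := by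
    intro s
    rw [← Scheme.Hom.comp_apply, pullbackSymmetry_hom_comp_snd]
  have h4 : ∀ s : ↥(pullback g f), e.hom (e.inv s) = s := by
    intro s
    rw [← Scheme.Hom.comp_apply, e.inv_hom_id]; rfl
  have h5 : ∀ s : ↥(pullback f g), e.inv (e.hom s) = s := by
    intro s
    rw [← Scheme.Hom.comp_apply, e.hom_inv_id]; rfl
  have h : FibGeneric (pullback.fst g f) (e.hom t) := by
    intro s hs hsp
    have h6 := ht (e.inv s) (by rw [h1, hs, h2]) (by
      have := hsp.map e.inv.continuous
      rwa [h5] at this)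
    rw [← h6, h4]
  have := FibGeneric.snd h
  rwa [h3] at this

/-- Being generic in the fibre passes to and from open subschemes. -/
theorem fibGeneric_ι_comp_iff (f : X ⟶ Y) (U : X.Opens) (u : U) :
    FibGeneric (U.ι ≫ f) u ↔ FibGeneric f u.1 := by
  constructor
  · intro h z hz hzu
    have hzU : z ∈ U := hzu.mem_open U.2 u.2
    have := h ⟨z, hzU⟩ hz ((subtype_specializes_iff _ _).mpr hzu)
    exact congrArg Subtype.val this
  · intro h z hz hzu
    exact Subtype.ext (h z.1 hz ((subtype_specializes_iff _ _).mp hzu))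

theorem rtd_ι_comp (f : X ⟶ Y) (U : X.Opens) (u : U) :
    rtd (U.ι ≫ f) u = rtd f u.1 := by
  refine (rtd_comp U.ι f (u : (U : Scheme.{u}))).trans ?_
  refine (congrArg (fun c => rtd f (U.ι u) + c)
    (rtd_eq_zero_of_isPreimmersion U.ι (u : (U : Scheme.{u})))).trans ?_
  exact add_zero _

/-- Translation of the fibre dimension clause of `EGA43.IsEquidimAt`. -/
theorem forall_dim_iff (f : X ⟶ Y) [LocallyOfFiniteType f] (U : X.Opens) (e : ℕ) :
    (∀ x' : (↥U : Type u),
      ∀ Z ∈ irreducibleComponents (↥((U.ι ≫ f).fiber ((U.ι ≫ f).base x')) : Type u),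
      topologicalKrullDim (↥Z : Type u) = e) ↔
    ∀ x ∈ U, FibGeneric f x → rtd f x = e := by
  have h1 : (∀ x' : (↥U : Type u),
      ∀ Z ∈ irreducibleComponents (↥((U.ι ≫ f).fiber ((U.ι ≫ f).base x')) : Type u),
      topologicalKrullDim (↥Z : Type u) = e) ↔ Cyc.HasRelDim (U.ι ≫ f) e := by
    constructor
    · intro h y T hT
      obtain ⟨t, ht⟩ := hT.1.nonempty
      have hy : (U.ι ≫ f) ((U.ι ≫ f).fiberι y t) = y := by
        have : (U.ι ≫ f).fiberι y t ∈ Set.range ((U.ι ≫ f).fiberι y) := ⟨t, rfl⟩
        rw [Scheme.Hom.range_fiberι] at this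
        exact this
      have := h ((U.ι ≫ f).fiberι y t)
      change ∀ Z ∈ irreducibleComponents (↥((U.ι ≫ f).fiber ((U.ι ≫ f)
        ((U.ι ≫ f).fiberι y t))) : Type u), topologicalKrullDim (↥Z : Type u) = e at this
      rw [hy] at this
      exact this T hT
    · intro h x'
      exact h _
  rw [h1, hasRelDim_iff]
  constructor
  · intro h x hx hg
    exact (rtd_ι_comp f U ⟨x, hx⟩).symm.trans
      (h ⟨x, hx⟩ ((fibGeneric_ι_comp_iff f U ⟨x, hx⟩).mpr hg))
  · intro h x hg
    exact (rtd_ι_comp f U x).trans (h _ x.2 ((fibGeneric_ι_comp_iff f U x).mp hg))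

/-- The closure of a point without proper generizations is an irreducible component. -/
theorem closure_mem_irreducibleComponents {T : Type*} [TopologicalSpace T] [QuasiSober T]
    {t : T} (h : ∀ s : T, s ⤳ t → s = t) : closure {t} ∈ irreducibleComponents T := by
  refine ⟨isIrreducible_singleton.closure, ?_⟩
  intro b hb hle
  have hbc := hb.closure
  have hg := hbc.isGenericPoint_genericPoint isClosed_closure
  have h1 : hbc.genericPoint ⤳ t :=
    hg.specializes (subset_closure (hle (subset_closure rfl)))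
  rw [← h _ h1, hg.def]
  exact subset_closure

/-- A generic point of an irreducible component has no proper generizations. -/
theorem eq_of_specializes_of_isGenericPoint {T : Type*} [TopologicalSpace T] [T0Space T]
    {Z : Set T} (hZ : Z ∈ irreducibleComponents T) {ζ : T} (hζ : IsGenericPoint ζ Z)
    {ξ : T} (hξ : ξ ⤳ ζ) : ξ = ζ := by
  have h1 : closure {ξ} ≤ Z := by
    refine hZ.2 isIrreducible_singleton.closure ?_
    rw [← hζ.def]
    exact hξ.closure_subset
  have h2 : ζ ⤳ ξ := hζ.specializes (h1 (subset_closure rfl))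
  exact (hξ.antisymm h2).eq

theorem closure_image_closure_singleton {A B : Type*} [TopologicalSpace A] [TopologicalSpace B]
    {h : A → B} (hc : Continuous h) (a : A) : closure (h '' closure {a}) = closure {h a} := by
  apply le_antisymm
  · refine closure_minimal ?_ isClosed_closure
    refine (image_closure_subset_closure_image hc).trans ?_
    exact closure_mono (Set.image_singleton (f := h) (a := a)).subset
  · exact closure_mono (Set.singleton_subset_iff.mpr ⟨a, subset_closure rfl, rfl⟩)

theorem isEquidimAt_baseChange_flat {X Y Y' : Scheme.{u}} (f : X ⟶ Y) [LocallyOfFiniteType f]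
    (g : Y' ⟶ Y) [Flat g] [IsLocallyNoetherian Y']
    (x : X) (h : EGA43.IsEquidimAt f x) (x' : ↥(pullback f g))
    (hx' : (pullback.fst f g).base x' = x) :
    EGA43.IsEquidimAt (pullback.snd f g) x' := by
  obtain ⟨e, U, hxU, hcomp, hdim⟩ := h
  rw [forall_dim_iff f U e] at hdim
  have hN : IsLocallyNoetherian (pullback f g) :=
    LocallyOfFiniteType.isLocallyNoetherian (pullback.snd f g)
  obtain ⟨V, hxV, hVU, hV⟩ := Ega43.EquidimSch.exists_opens_small x'
    (pullback.fst f g ⁻¹ᵁ U) (by change (pullback.fst f g).base x' ∈ U; rwa [hx'])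
  refine ⟨e, V, hxV, ?_, ?_⟩
  · intro Z hZ
    have hQ : QuasiSober ↥V := V.isOpen.isOpenEmbedding_subtypeVal.quasiSober
    let ζ : V := hZ.1.genericPoint
    have hζ : IsGenericPoint ζ Z :=
      hZ.1.isGenericPoint_genericPoint (isClosed_of_mem_irreducibleComponents _ hZ)
    have hmax : ∀ ξ : ↥(pullback f g), ξ ⤳ ζ.1 → ξ = ζ.1 := by
      intro ξ hξ
      have hξV : ξ ∈ V := hξ.mem_open V.2 ζ.2
      exact congrArg Subtype.val (eq_of_specializes_of_isGenericPoint hZ hζ (ξ := ⟨ξ, hξV⟩)
        ((subtype_specializes_iff _ _).mpr hξ))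
    -- the image in `X` is maximal
    have hzmax : ∀ ξ : X, ξ ⤳ pullback.fst f g ζ.1 → ξ = pullback.fst f g ζ.1 := by
      intro ξ hξ
      obtain ⟨y, hy, rfl⟩ := exists_specializes_of_flat (pullback.fst f g) hξ
      rw [hmax y hy]
    have hzU : pullback.fst f g ζ.1 ∈ U := hVU ζ.2
    -- the image in `Y` is maximal
    have hQU : QuasiSober ↥U := U.isOpen.isOpenEmbedding_subtypeVal.quasiSober
    obtain ⟨W, hW, -, hWc⟩ := hcomp (closure {⟨pullback.fst f g ζ.1, hzU⟩})
      (closure_mem_irreducibleComponents fun s hs ↦ Subtype.ext (hzmax s.1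
        ((subtype_specializes_iff _ _).mp hs)))
    have hcl : closure ((U.ι ≫ f).base '' closure {(⟨pullback.fst f g ζ.1, hzU⟩ : U)}) =
        closure {f (pullback.fst f g ζ.1)} :=
      closure_image_closure_singleton (U.ι ≫ f).continuous _
    replace hWc := hcl.symm.trans hWc
    have hymax : ∀ y : Y, y ⤳ f (pullback.fst f g ζ.1) → y = f (pullback.fst f g ζ.1) :=
      fun y hy ↦ eq_of_specializes_of_isGenericPoint hW hWc hy
    have hfg : f (pullback.fst f g ζ.1) = g (pullback.snd f g ζ.1) :=
      congr($(pullback.condition (f := f) (g := g)) ζ.1)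
    rw [hfg] at hymax
    have hfib : FibGeneric g (pullback.snd f g ζ.1) :=
      FibGeneric.snd fun y _ hy => hmax y hy
    have hymax' : ∀ y : Y', y ⤳ pullback.snd f g ζ.1 → y = pullback.snd f g ζ.1 := by
      intro y hy
      exact hfib y (hymax _ (hy.map g.continuous)) hy
    have hζx : ζ.1 ⤳ x' := by
      obtain ⟨η, h1, h2⟩ := hV ζ.1 ζ.2
      rwa [hmax η h1] at h2
    refine ⟨closure {pullback.snd f g ζ.1}, closure_mem_irreducibleComponents hymax', ?_, ?_⟩
    · exact specializes_iff_mem_closure.mp (hζx.map (pullback.snd f g).continuous)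
    · rw [← hζ.def]
      exact closure_image_closure_singleton (V.ι ≫ pullback.snd f g).continuous ζ
  · rw [forall_dim_iff (pullback.snd f g) V e]
    intro t ht htg
    rw [rtd_snd_of_fibGeneric_snd htg]
    exact hdim _ (hVU ht) (fibGeneric_fst htg)

end Groth.Agent.Old.H33.EquidimBC
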